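import Mathlib
import Cfsg.Agent.Lib.PGroup.SuzukiTwo.CW
import Cfsg.Agent.Lib.PGroup.SuzukiGen.Main

/-!
# Anisotropic quadratic maps with a transitive symmetry group

An automorphism of prime order `r ∣ q - 1` preserving an anisotropic quadratic map `V → W`
(`W` of order `q`) whose fibres over `W#` have the same size, and commuting with a map which acts
freely on `W#`, is trivial.
-/

set_option autoImplicit false
set_option linter.style.haveILetI false
set_option linter.unusedSectionVars false
set_option linter.unusedVariables false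

namespace Cfsg.Agent.Lib.PGroup.SuzukiGen

/-- Chevalley-Warning in multiplicative notation. -/
theorem cw_mul {V W : Type*} [CommGroup V] [CommGroup W] [Finite V] [Finite W]
    (hV : ∀ v : V, v * v = 1) (hW : ∀ w : W, w * w = 1) (Q : V → W) (h0 : Q 1 = 1)
    (hB : ∀ u u' w, Q (u * u' * w) * Q (u * u') * Q w =
      (Q (u * w) * Q u * Q w) * (Q (u' * w) * Q u' * Q w))
    (hcard : Nat.card W ^ 2 < Nat.card V) : ∃ v, v ≠ 1 ∧ Q v = 1 := by
  classical
  let _ : Module (ZMod 2) (Additive V) := AddCommGroup.zmodModule (n := 2) (by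
    intro x
    rw [two_nsmul]
    exact hV (Additive.toMul x))
  let _ : Module (ZMod 2) (Additive W) := AddCommGroup.zmodModule (n := 2) (by
    intro x
    rw [two_nsmul]
    exact hW (Additive.toMul x))
  obtain ⟨v, hv, hQ⟩ := SuzukiTwo.cw_quad (V := Additive V) (W := Additive W)
    (fun v => Additive.ofMul (Q (Additive.toMul v)))
    (congrArg Additive.ofMul h0)
    (fun u u' w => congrArg Additive.ofMul (hB (Additive.toMul u) (Additive.toMul u')
      (Additive.toMul w)))
    (by
      rw [Nat.card_congr (Additive.toMul : Additive W ≃ W),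
        Nat.card_congr (Additive.toMul : Additive V ≃ V)]
      exact hcard)
  exact ⟨Additive.toMul v, fun h => hv (Additive.toMul.injective h), Additive.ofMul.injective hQ⟩

theorem aniso_fix {V W : Type*} [CommGroup V] [CommGroup W] [Finite V] [Finite W]
    (hV : ∀ v : V, v * v = 1) (hW : ∀ w : W, w * w = 1) {n : ℕ} (hn : 2 ≤ n)
    (hWc : Nat.card W = 2 ^ n) (Q : V → W) (h0 : Q 1 = 1) (hani : ∀ v, Q v = 1 → v = 1)
    (hB : ∀ u u' w, Q (u * u' * w) * Q (u * u') * Q w =
      (Q (u * w) * Q u * Q w) * (Q (u' * w) * Q u' * Q w))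
    (hfib : ∀ z z' : W, z ≠ 1 → z' ≠ 1 → ∃ b : V ≃ V, ∀ v, Q v = z ↔ Q (b v) = z')
    {r M : ℕ} (hr : r.Prime) (hrq : r ∣ 2 ^ n - 1)
    (κ : V →* V) (hκr : ∀ v, κ^[r] v = v) (hκQ : ∀ v, Q (κ v) = Q v)
    (ξ : V →* V) (ξ' : W → W) (hξQ : ∀ v, Q (ξ v) = ξ' (Q v)) (hcomm : ∀ v, κ (ξ v) = ξ (κ v))
    (hξinj : Function.Injective ξ)
    (hfree : ∀ (a : ℕ) (z : W), z ≠ 1 → ξ'^[a] z = z → M ∣ a)
    (hord : ∀ d, M ∣ 2 ^ d - 1 → n ∣ d) :
    ∀ v, κ v = v := by
  classical
  haveI := Fintype.ofFinite V
  haveI := Fintype.ofFinite W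
  haveI : Fact r.Prime := ⟨hr⟩
  have hn0 : 0 < n := by omega
  have h2n : 4 ≤ 2 ^ n := by
    calc 4 = 2 ^ 2 := rfl
      _ ≤ 2 ^ n := Nat.pow_le_pow_right (by norm_num) hn
  have hpV : IsPGroup 2 V := fun v => ⟨1, by simpa [pow_two] using hV v⟩
  obtain ⟨k, hk⟩ := IsPGroup.iff_card.mp hpV
  have hCW : Nat.card V ≤ Nat.card W ^ 2 := by
    by_contra hcon
    push Not at hcon
    obtain ⟨v, hv, hQv⟩ := cw_mul hV hW Q h0 hB hcon
    exact hv (hani v hQv)
  have hk2 : k ≤ n * 2 := by
    rw [hk, hWc, ← pow_mul] at hCW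
    exact (Nat.pow_le_pow_iff_right (by norm_num)).mp hCW
  obtain ⟨z₀, hz₀⟩ : ∃ z₀ : W, z₀ ≠ 1 := by
    haveI : Nontrivial W := by
      rw [← Finite.one_lt_card_iff_nontrivial, hWc]
      omega
    exact exists_ne 1
  set f := Nat.card {v : V // Q v = z₀} with hf
  have hfz : ∀ z : W, z ≠ 1 → Nat.card {v : V // Q v = z} = f := by
    intro z hz
    obtain ⟨b, hb⟩ := hfib z₀ z hz₀ hz
    exact (Nat.card_congr (b.subtypeEquiv hb)).symm
  have hf1 : Nat.card {v : V // Q v = 1} = 1 := by
    rw [Nat.card_eq_one_iff_unique]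
    refine ⟨⟨?_⟩, ⟨⟨1, h0⟩⟩⟩
    rintro ⟨a, ha⟩ ⟨b, hb⟩
    apply Subtype.ext
    exact (hani a ha).trans (hani b hb).symm
  have hcount : 2 ^ k = 1 + (2 ^ n - 1) * f := by
    rw [← hk, Nat.card_congr (Equiv.sigmaFiberEquiv Q).symm, Nat.card_sigma,
      ← Finset.add_sum_erase _ _ (Finset.mem_univ (1 : W)), hf1]
    congr 1
    rw [Finset.sum_congr rfl (g := fun _ => f) (fun z hz => hfz z (Finset.ne_of_mem_erase hz))]
    rw [Finset.sum_const, Finset.card_erase_of_mem (Finset.mem_univ _), Finset.card_univ,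
      ← Nat.card_eq_fintype_card, hWc, smul_eq_mul]
  have hdiv : 2 ^ n - 1 ∣ 2 ^ k - 1 := ⟨f, by omega⟩
  have hnk : n ∣ k := by
    have h1 := Nat.pow_sub_one_gcd_pow_sub_one 2 n k
    rw [Nat.gcd_eq_left hdiv] at h1
    have h2 : 2 ^ n = 2 ^ Nat.gcd n k := by
      have : 1 ≤ 2 ^ Nat.gcd n k := Nat.one_le_two_pow
      omega
    have h3 := Nat.pow_right_injective (le_refl 2) h2
    rw [h3]
    exact Nat.gcd_dvd_right n k
  obtain ⟨c, rfl⟩ := hnk
  have hc : c ≤ 2 := Nat.le_of_mul_le_mul_left hk2 hn0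
  have hr2 : r ≠ 2 := by
    rintro rfl
    obtain ⟨m, hm⟩ := hrq
    obtain ⟨n', rfl⟩ : ∃ n', n = n' + 1 := ⟨n - 1, by omega⟩
    rw [pow_succ] at hm
    have : 1 ≤ 2 ^ n' := Nat.one_le_two_pow
    omega
  have hfixcase : ∀ z : W, z ≠ 1 → f = 1 → ∀ v, Q v = z → κ v = v := by
    intro z hz hf1' v hv
    have h1 : Nat.card {v : V // Q v = z} = 1 := by rw [hfz z hz, hf1']
    rw [Nat.card_eq_one_iff_unique] at h1
    have h2 : (⟨κ v, by rw [hκQ, hv]⟩ : {v : V // Q v = z}) = ⟨v, hv⟩ := h1.1.elim _ _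
    exact congrArg Subtype.val h2
  have hc012 : c = 0 ∨ c = 1 ∨ c = 2 := by omega
  rcases hc012 with rfl | rfl | rfl
  · intro v
    have h1 : Nat.card V = 1 := by rw [hk]; simp
    rw [Nat.card_eq_one_iff_unique] at h1
    exact h1.1.elim _ _
  · have hf' : f = 1 := by
      rw [mul_one] at hcount
      have h1 : (2 ^ n - 1) * f = (2 ^ n - 1) * 1 := by omega
      exact Nat.eq_of_mul_eq_mul_left (by omega) h1
    intro v
    by_cases hv : v = 1
    · rw [hv, map_one]
    · exact hfixcase (Q v) (fun h => hv (hani v h)) hf' v rfl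
  · -- the main case
    have hf' : f = 2 ^ n + 1 := by
      obtain ⟨A, hA⟩ : ∃ A, 2 ^ n = A + 1 := ⟨2 ^ n - 1, by omega⟩
      rw [pow_mul, hA] at hcount
      simp only [Nat.add_sub_cancel] at hcount
      have e1 : (A + 1) ^ 2 = 1 + A * (A + 2) := by ring
      rw [e1] at hcount
      have h1 : A * f = A * (A + 2) := by omega
      rw [hA, Nat.eq_of_mul_eq_mul_left (by omega) h1]
    -- fixed points on the fibres
    have htwo : ∀ z : W, z ≠ 1 → ∃ v v' : V, v ≠ v' ∧ Q v = z ∧ Q v' = z ∧ κ v = v ∧ κ v' = v' := by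
      intro z hz
      let X := {v : V // Q v = z}
      let g : Function.End X := fun x => ⟨κ x.1, by rw [hκQ]; exact x.2⟩
      have hgpow : ∀ (m : ℕ) (x : X), (((g ^ m : Function.End X) x : X) : V) = κ^[m] x.1 := by
        intro m x
        induction m with
        | zero => rfl
        | succ m ih =>
          rw [Function.iterate_succ_apply', pow_succ', ← ih]
          rfl
      have hg1 : g ^ r ^ 1 = 1 := by
        funext x
        apply Subtype.ext
        rw [pow_one, hgpow, hκr]
        rfl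
      have hm := Equiv.Perm.card_fixedPoints_modEq (f := g) (p := r) (n := 1) hg1
      have hcardX : Fintype.card X = 2 ^ n + 1 := by
        rw [← Nat.card_eq_fintype_card]
        show Nat.card {v : V // Q v = z} = _
        rw [hfz z hz, hf']
      rw [hcardX] at hm
      have h2n1 : 2 ^ n ≡ 1 [MOD r] := by
        have h1 : 1 ≤ 2 ^ n := Nat.one_le_two_pow
        exact ((Nat.modEq_iff_dvd' h1).mpr hrq).symm
      have hm2 : Fintype.card (Function.fixedPoints g) ≡ 2 [MOD r] :=
        hm.symm.trans (h2n1.add_right 1)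
      have hge : 1 < Fintype.card (Function.fixedPoints g) := by
        by_contra hcon
        have h3 : r ≥ 2 := hr.two_le
        have h4 : Fintype.card (Function.fixedPoints g) = 0 ∨
            Fintype.card (Function.fixedPoints g) = 1 := by omega
        rcases h4 with h4 | h4
        · rw [h4] at hm2
          have h5 : r ∣ 2 := by
            have := (Nat.modEq_iff_dvd' (by norm_num : 0 ≤ 2)).mp hm2
            simpa using this
          exact hr2 ((Nat.prime_dvd_prime_iff_eq hr Nat.prime_two).mp h5)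
        · rw [h4] at hm2
          have h5 : r ∣ 1 := by
            have := (Nat.modEq_iff_dvd' (by norm_num : 1 ≤ 2)).mp hm2
            simpa using this
          exact hr.one_lt.ne' (Nat.dvd_one.mp h5)
      obtain ⟨⟨a, ha⟩, ⟨b, hb⟩, hab⟩ := Fintype.one_lt_card_iff.mp hge
      refine ⟨a.1, b.1, fun h => hab (Subtype.ext (Subtype.ext h)), a.2, b.2, ?_, ?_⟩
      · exact congrArg Subtype.val ha
      · exact congrArg Subtype.val hb
    -- the fixed subgroup
    let Fx : Subgroup V :=
      { carrier := {v | κ v = v}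
        one_mem' := map_one κ
        mul_mem' := by
          intro a b ha hb
          show κ (a * b) = a * b
          rw [map_mul, ha, hb]
        inv_mem' := by
          intro a ha
          show κ a⁻¹ = a⁻¹
          rw [map_inv, ha] }
    have hFx : ∀ v, v ∈ Fx ↔ κ v = v := fun v => Iff.rfl
    let R : Fx → W := fun v => Q v.1
    have hRs : Function.Surjective R := by
      intro z
      by_cases hz : z = 1
      · exact ⟨1, by rw [hz]; exact h0⟩
      · obtain ⟨v, -, -, hv, -, hv2, -⟩ := htwo z hz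
        exact ⟨⟨v, hv2⟩, hv⟩
    have hRni : ¬ Function.Injective R := by
      intro hinj
      obtain ⟨v, v', hne, hv, hv', h1, h2⟩ := htwo z₀ hz₀
      have : (⟨v, h1⟩ : Fx) = ⟨v', h2⟩ := hinj (hv.trans hv'.symm)
      exact hne (congrArg Subtype.val this)
    have hlt : Nat.card W < Nat.card Fx := by
      by_contra hcon
      push Not at hcon
      exact hRni (hRs.bijective_of_nat_card_le hcon).1
    obtain ⟨c, hc⟩ := IsPGroup.iff_card.mp (hpV.to_subgroup Fx)
    have hcn : n < c := by
      rw [hc, hWc] at hlt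
      exact (Nat.pow_lt_pow_iff_right (by norm_num)).mp hlt
    have hiter : ∀ (a : ℕ) (v : V), Q (ξ^[a] v) = ξ'^[a] (Q v) := by
      intro a v
      induction a with
      | zero => rfl
      | succ a ih =>
        rw [Function.iterate_succ_apply', Function.iterate_succ_apply', hξQ, ih]
    have hd : M ∣ Nat.card {x : V | x ∈ Fx ∧ x ≠ 1} := by
      apply free_set_dvd _ ξ
      · intro x hx
        refine ⟨?_, fun h => hx.2 (hξinj (by rw [h, map_one]))⟩
        show κ (ξ x) = ξ x
        rw [hcomm, (hFx x).mp hx.1]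
      · exact hξinj.injOn
      · intro x hx a ha
        apply hfree a (Q x) (fun h => hx.2 (hani x h))
        rw [← hiter, ha]
    have hc1 := Setup.card_ne_one Fx
    have hnc : n ∣ c := by
      apply hord
      rw [← hc, ← hc1]
      simpa using hd
    have hcle : c ≤ n * 2 := by
      have h1 : Nat.card Fx ≤ Nat.card V := Subgroup.card_le_card_group Fx
      rw [hc, hk] at h1
      exact (Nat.pow_le_pow_iff_right (by norm_num)).mp h1
    have hceq : c = n * 2 := by
      obtain ⟨e, rfl⟩ := hnc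
      have he1 : 1 < e := by
        by_contra h
        have : e ≤ 1 := by omega
        have := Nat.mul_le_mul_left n this
        omega
      have he2 : e ≤ 2 := Nat.le_of_mul_le_mul_left hcle hn0
      have : e = 2 := by omega
      rw [this]
    have htop : Fx = ⊤ := by
      apply Subgroup.eq_top_of_card_eq
      rw [hc, hk, hceq]
    intro v
    have : v ∈ Fx := by rw [htop]; trivial
    exact this

end Cfsg.Agent.Lib.PGroup.SuzukiGen
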