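import Mathlib
import Cfsg.Agent.Lib.PGroup.SuzukiGen.Aniso

/-!
# The squaring map on an elementary abelian section with central kernel
-/

set_option autoImplicit false
set_option linter.style.haveILetI false
set_option linter.unusedSectionVars false
set_option linter.unusedVariables false

namespace Cfsg.Agent.Lib.PGroup.SuzukiGen

open scoped commutatorElement

theorem aniso_fix_grp {V W : Type*} [Group V] [Group W] [Finite V] [Finite W]
    (hcV : ∀ a b : V, a * b = b * a) (hcW : ∀ a b : W, a * b = b * a)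
    (hV : ∀ v : V, v * v = 1) (hW : ∀ w : W, w * w = 1) {n : ℕ} (hn : 2 ≤ n)
    (hWc : Nat.card W = 2 ^ n) (Q : V → W) (h0 : Q 1 = 1) (hani : ∀ v, Q v = 1 → v = 1)
    (hB : ∀ u u' w, Q (u * u' * w) * Q (u * u') * Q w =
      (Q (u * w) * Q u * Q w) * (Q (u' * w) * Q u' * Q w))
    (hfib : ∀ z z' : W, z ≠ 1 → z' ≠ 1 → ∃ b : V ≃ V, ∀ v, Q v = z ↔ Q (b v) = z')
    {r M : ℕ} (hr : r.Prime) (hrq : r ∣ 2 ^ n - 1)
    (κ : V →* V) (hκr : ∀ v, κ^[r] v = v) (hκQ : ∀ v, Q (κ v) = Q v)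
    (ξ : V →* V) (ξ' : W → W) (hξQ : ∀ v, Q (ξ v) = ξ' (Q v)) (hcomm : ∀ v, κ (ξ v) = ξ (κ v))
    (hξinj : Function.Injective ξ)
    (hfree : ∀ (a : ℕ) (z : W), z ≠ 1 → ξ'^[a] z = z → M ∣ a)
    (hord : ∀ d, M ∣ 2 ^ d - 1 → n ∣ d) :
    ∀ v, κ v = v := by
  letI iV : CommGroup V := { (inferInstance : Group V) with mul_comm := hcV }
  letI iW : CommGroup W := { (inferInstance : Group W) with mul_comm := hcW }
  exact aniso_fix hV hW hn hWc Q h0 hani hB hfib hr hrq κ hκr hκQ ξ ξ' hξQ hcomm hξinj hfree hord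

theorem exp2_ident {W : Type*} [Group W] (hcW : ∀ a b : W, a * b = b * a) (hW : ∀ w : W, w * w = 1)
    (a b c d e g : W) :
    (a * b * (g * e)) * g * e = ((a * (c * e)) * c * e) * ((b * (d * e)) * d * e) := by
  letI iW : CommGroup W := { (inferInstance : Group W) with mul_comm := hcW }
  have h1 : (a * b * (g * e)) * g * e = a * b * (g * g) * (e * e) := by
    simp only [mul_comm, mul_left_comm]
  have h2 : ((a * (c * e)) * c * e) * ((b * (d * e)) * d * e) =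
      a * b * (c * c) * (d * d) * (e * e) * (e * e) := by
    simp only [mul_comm, mul_left_comm]
  rw [h1, h2]
  simp only [hW, mul_one]

variable {G : Type*} [Group G]

/-- The map induced on a section. -/
def secMap (C D : Subgroup G) [(D.subgroupOf C).Normal] (g : G →* G) (hC : ∀ x ∈ C, g x ∈ C)
    (hD : ∀ x ∈ D, g x ∈ D) : (C ⧸ D.subgroupOf C) →* (C ⧸ D.subgroupOf C) :=
  QuotientGroup.map _ _ ((g.comp C.subtype).codRestrict C (fun x => hC x x.2)) (by
    intro x hx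
    rw [Subgroup.mem_comap, Subgroup.mem_subgroupOf]
    exact hD _ (Subgroup.mem_subgroupOf.mp hx))

theorem secMap_mk (C D : Subgroup G) [(D.subgroupOf C).Normal] (g : G →* G) (hC : ∀ x ∈ C, g x ∈ C)
    (hD : ∀ x ∈ D, g x ∈ D) (x : C) :
    secMap C D g hC hD (x : C ⧸ D.subgroupOf C) = ((⟨g x, hC x x.2⟩ : C) : C ⧸ D.subgroupOf C) :=
  rfl

theorem secMap_iter (C D : Subgroup G) [(D.subgroupOf C).Normal] (g : G →* G)
    (hC : ∀ x ∈ C, g x ∈ C) (hD : ∀ x ∈ D, g x ∈ D) (m : ℕ) (x : C) (hx : g^[m] x ∈ C) :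
    (secMap C D g hC hD)^[m] (x : C ⧸ D.subgroupOf C) =
      ((⟨g^[m] x, hx⟩ : C) : C ⧸ D.subgroupOf C) := by
  induction m with
  | zero => rfl
  | succ m ih =>
    have h1 : g^[m] x ∈ C := by
      have h2 : ∀ m, g^[m] x ∈ C := by
        intro m
        induction m with
        | zero => exact x.2
        | succ m ihm =>
          rw [Function.iterate_succ_apply']
          exact hC _ ihm
      exact h2 m
    rw [Function.iterate_succ_apply', ih h1, secMap_mk]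
    congr 2
    rw [Function.iterate_succ_apply']

theorem iter_eq_pow' (g : MulAut G) (n : ℕ) (x : G) :
    (g.toMonoidHom : G →* G)^[n] x = (g ^ n) x := by
  induction n with
  | zero => rfl
  | succ n ih =>
    rw [Function.iterate_succ_apply', ih, pow_succ', MulAut.mul_apply]
    rfl

/-- **The section lemma.** -/
theorem qsec [Finite G] (hG : IsPGroup 2 G) (Om : Subgroup G) (hOm : ∀ x, x ∈ Om ↔ x * x = 1)
    (hOc : ∀ x ∈ Om, ∀ g, g * x = x * g) {n : ℕ} (hn : 2 ≤ n) (hOq : Nat.card Om = 2 ^ n)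
    {A : Subgroup (MulAut G)}
    (htrans : ∀ x y : G, x ≠ 1 → x * x = 1 → y ≠ 1 → y * y = 1 → ∃ a ∈ A, a x = y)
    {C D : Subgroup G} (hCi : ∀ a ∈ A, ∀ x ∈ C, a x ∈ C) (hDi : ∀ a ∈ A, ∀ x ∈ D, a x ∈ D)
    (hDC : D ≤ C) (hDc : ∀ d ∈ D, ∀ x ∈ C, x * d = d * x) (hOD : Om ≤ D)
    (hsq : ∀ x ∈ C, x * x ∈ D) (hcm : ∀ x ∈ C, ∀ y ∈ C, ⁅x, y⁆ ∈ D)
    {κ ξ : MulAut G} (hκ : κ ∈ A) (hξ : ξ ∈ A) (hκD : ∀ d ∈ D, κ d = d) (hcomm : κ * ξ = ξ * κ)
    {r M : ℕ} (hr : r.Prime) (hrq : r ∣ 2 ^ n - 1) (hκr : κ ^ r = 1)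
    (hfree : ∀ (a : ℕ) (z : G), z ≠ 1 → z * z = 1 → (ξ ^ a) z = z → M ∣ a)
    (hord : ∀ d, M ∣ 2 ^ d - 1 → n ∣ d) :
    ∀ x ∈ C, x⁻¹ * κ x ∈ D := by
  classical
  have hDab : ∀ a ∈ D, ∀ b ∈ D, a * b = b * a := fun a ha b hb => hDc b hb a (hDC ha)
  have hmulpow : ∀ g ∈ D, ∀ g' ∈ D, ∀ m : ℕ, (g * g') ^ m = g ^ m * g' ^ m :=
    fun g hg g' hg' m => (show Commute g g' from hDab g hg g' hg').mul_pow m
  have hpow2 : ∀ (g : G) (k : ℕ), g ^ (2 ^ (k + 1)) = g ^ (2 ^ k) * g ^ (2 ^ k) := by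
    intro g k
    rw [pow_succ, pow_mul, pow_two]
  have hsq2 : ∀ (g : G) (k : ℕ), (g * g) ^ (2 ^ k) = g ^ (2 ^ (k + 1)) := by
    intro g k
    rw [← pow_two, ← pow_mul, pow_succ]
    congr 1
    ring
  have hn4 : 4 ≤ 2 ^ n := by
    calc 4 = 2 ^ 2 := rfl
      _ ≤ 2 ^ n := Nat.pow_le_pow_right (by norm_num) hn
  -- exponent of `D`
  have hDne : D ≠ ⊥ := by
    intro hbot
    have h1 : Om ≤ ⊥ := hbot ▸ hOD
    have h2 : Om = ⊥ := le_bot_iff.mp h1
    rw [h2, Subgroup.card_bot] at hOq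
    omega
  obtain ⟨k, he, g₀, hg₀D, hg₀⟩ : ∃ k : ℕ, (∀ g ∈ D, g ^ (2 ^ (k + 1)) = 1) ∧
      ∃ g₀ ∈ D, g₀ ^ (2 ^ k) ≠ 1 := by
    have hexp : ∃ e : ℕ, ∀ g ∈ D, g ^ (2 ^ e) = 1 := by
      obtain ⟨e, he⟩ := IsPGroup.iff_card.mp hG
      refine ⟨e, fun g _ => ?_⟩
      rw [← he]
      exact pow_card_eq_one'
    have h0 : Nat.find hexp ≠ 0 := by
      intro h0
      apply hDne
      rw [eq_bot_iff]
      intro g hg
      have := Nat.find_spec hexp g hg
      rw [h0] at this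
      simpa using this
    obtain ⟨k, hk⟩ := Nat.exists_eq_succ_of_ne_zero h0
    refine ⟨k, ?_, ?_⟩
    · have := Nat.find_spec hexp
      rw [hk] at this
      exact this
    · have := Nat.find_min hexp (m := k) (by omega)
      push Not at this
      exact this
  have hz2 : g₀ ^ (2 ^ k) * g₀ ^ (2 ^ k) = 1 := by
    rw [← hpow2]
    exact he g₀ hg₀D
  have hF3 : ∀ j, j ≤ k → ∀ u : G, u * u = 1 → ∃ g ∈ D, g ^ (2 ^ (j + 1)) = 1 ∧ g ^ (2 ^ j) = u := by
    intro j hj u hu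
    by_cases hu1 : u = 1
    · exact ⟨1, D.one_mem, by simp, by simp [hu1]⟩
    obtain ⟨a, ha, hau⟩ := htrans _ u hg₀ hz2 hu1 hu
    have hg₁H : g₀ ^ (2 ^ (k - j)) ∈ D := D.pow_mem hg₀D _
    have e1 : (g₀ ^ (2 ^ (k - j))) ^ (2 ^ j) = g₀ ^ (2 ^ k) := by
      rw [← pow_mul, ← pow_add, Nat.sub_add_cancel hj]
    refine ⟨a (g₀ ^ (2 ^ (k - j))), hDi a ha _ hg₁H, ?_, ?_⟩
    · rw [← map_pow, hpow2, e1, hz2, map_one]
    · rw [← map_pow, e1, hau]
  have hF4 : ∀ j, j ≤ k → ∀ u ∈ D, u ^ (2 ^ j) = 1 →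
      ∃ g ∈ D, g ^ (2 ^ (j + 1)) = 1 ∧ g * g = u := by
    intro j
    induction j with
    | zero =>
      intro _ u _ hu
      have : u = 1 := by simpa using hu
      exact ⟨1, D.one_mem, by simp, by simp [this]⟩
    | succ j ih =>
      intro hj u hu hu1
      have hv : u ^ (2 ^ j) * u ^ (2 ^ j) = 1 := by rw [← hpow2]; exact hu1
      obtain ⟨g₁, hg₁H, hg₁1, hg₁2⟩ := hF3 (j + 1) hj _ hv
      have hw : (u * (g₁ * g₁)⁻¹) ^ (2 ^ j) = 1 := by
        rw [hmulpow _ hu _ (D.inv_mem (D.mul_mem hg₁H hg₁H)), inv_pow, hsq2, hg₁2]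
        simp
      obtain ⟨g₂, hg₂H, hg₂1, hg₂2⟩ :=
        ih (by omega) _ (D.mul_mem hu (D.inv_mem (D.mul_mem hg₁H hg₁H))) hw
      refine ⟨g₂ * g₁, D.mul_mem hg₂H hg₁H, ?_, ?_⟩
      · rw [hmulpow _ hg₂H _ hg₁H, hg₁1, mul_one, hpow2, hg₂1, mul_one]
      · have e1 : g₂ * g₁ * (g₂ * g₁) = g₂ * g₂ * (g₁ * g₁) := by
          calc g₂ * g₁ * (g₂ * g₁) = g₂ * (g₁ * g₂) * g₁ := by group
            _ = g₂ * (g₂ * g₁) * g₁ := by rw [hDab g₁ hg₁H g₂ hg₂H]
            _ = _ := by group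
        rw [e1, hg₂2]
        group
  -- the quadratic map
  let Qf : G → G := fun x => (x * x) ^ (2 ^ k)
  have hQf : ∀ x, Qf x = (x * x) ^ (2 ^ k) := fun _ => rfl
  have hQO : ∀ x ∈ C, Qf x ∈ Om := by
    intro x hx
    rw [hOm, hQf, ← hpow2]
    exact he _ (hsq x hx)
  have hQ1 : ∀ x ∈ C, Qf x = 1 → x ∈ D := by
    intro x hx h
    obtain ⟨g, hgD, -, hg⟩ := hF4 k le_rfl _ (hsq x hx) h
    have hcg : x * g⁻¹ = g⁻¹ * x := hDc _ (D.inv_mem hgD) x hx
    have h1 : (x * g⁻¹) * (x * g⁻¹) = 1 := by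
      calc (x * g⁻¹) * (x * g⁻¹) = x * (g⁻¹ * x) * g⁻¹ := by group
        _ = x * (x * g⁻¹) * g⁻¹ := by rw [hcg]
        _ = (x * x) * (g⁻¹ * g⁻¹) := by group
        _ = (g * g) * (g⁻¹ * g⁻¹) := by rw [hg]
        _ = 1 := by group
    have h2 : x * g⁻¹ ∈ D := hOD ((hOm _).mpr h1)
    have : x = (x * g⁻¹) * g := by group
    rw [this]
    exact D.mul_mem h2 hgD
  have hQd : ∀ x ∈ C, ∀ d ∈ D, Qf (x * d) = Qf x := by
    intro x hx d hd
    have h1 : x * d * (x * d) = x * x * (d * d) := by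
      calc x * d * (x * d) = x * (d * x) * d := by group
        _ = x * (x * d) * d := by rw [← hDc d hd x hx]
        _ = _ := by group
    rw [hQf, hQf, h1, hmulpow _ (hsq x hx) _ (D.mul_mem hd hd), hsq2 d k, he d hd, mul_one]
  have hQa : ∀ (a : G →* G) (x : G), Qf (a x) = a (Qf x) := by
    intro a x
    rw [hQf, hQf, ← map_mul, map_pow]
  have hcomem : ∀ x ∈ C, ∀ y ∈ C, ⁅y, x⁆ ^ (2 ^ k) ∈ Om := by
    intro x hx y hy
    rw [hOm, ← hpow2]
    exact he _ (hcm y hy x hx)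
  have hPol : ∀ x ∈ C, ∀ y ∈ C, Qf (x * y) = ⁅y, x⁆ ^ (2 ^ k) * (Qf x * Qf y) := by
    intro x hx y hy
    have hc := hcm y hy x hx
    have h1 : x * y * (x * y) = ⁅y, x⁆ * ((x * x) * (y * y)) := by
      calc x * y * (x * y) = x * (y * x) * y := by group
        _ = x * (⁅y, x⁆ * x * y) * y := by
            congr 2
            simp only [commutatorElement_def]; group
        _ = (x * ⁅y, x⁆) * x * y * y := by group
        _ = (⁅y, x⁆ * x) * x * y * y := by rw [hDc _ hc x hx]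
        _ = _ := by group
    rw [hQf, hQf, hQf, h1, hmulpow _ hc _ (D.mul_mem (hsq x hx) (hsq y hy)),
      hmulpow _ (hsq x hx) _ (hsq y hy)]
  have hBi : ∀ z ∈ C, ∀ x ∈ C, ∀ y ∈ C,
      ⁅z, x * y⁆ ^ (2 ^ k) = ⁅z, x⁆ ^ (2 ^ k) * ⁅z, y⁆ ^ (2 ^ k) := by
    intro z hz x hx y hy
    have hc := hcm z hz y hy
    have h2 : ⁅z, x * y⁆ = ⁅z, x⁆ * (x * ⁅z, y⁆ * x⁻¹) := by
      simp only [commutatorElement_def]; group
    have h3 : x * ⁅z, y⁆ * x⁻¹ = ⁅z, y⁆ := by
      rw [hDc _ hc x hx, mul_inv_cancel_right]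
    rw [h2, h3, hmulpow _ (hcm z hz x hx) _ hc]
  -- the section
  haveI hDn : (D.subgroupOf C).Normal := by
    constructor
    intro d hd g
    rw [Subgroup.mem_subgroupOf] at hd ⊢
    have h1 : ((g * d * g⁻¹ : C) : G) = d := by
      have h2 : (g : G) * d = d * g := hDc d hd g g.2
      simp only [Subgroup.coe_mul, Subgroup.coe_inv]
      rw [h2, mul_inv_cancel_right]
    rw [h1]
    exact hd
  have hmk1 : ∀ x : C, ((x : C ⧸ D.subgroupOf C) = 1) ↔ (x : G) ∈ D := by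
    intro x
    rw [QuotientGroup.eq_one_iff, Subgroup.mem_subgroupOf]
  have hmkeq : ∀ x y : C, ((x : C ⧸ D.subgroupOf C) = (y : C ⧸ D.subgroupOf C)) ↔
      (x : G)⁻¹ * y ∈ D := by
    intro x y
    rw [QuotientGroup.eq, Subgroup.mem_subgroupOf]
    simp
  have hcV : ∀ a b : C ⧸ D.subgroupOf C, a * b = b * a := by
    intro a b
    obtain ⟨x, rfl⟩ := QuotientGroup.mk_surjective a
    obtain ⟨y, rfl⟩ := QuotientGroup.mk_surjective b
    rw [← QuotientGroup.mk_mul, ← QuotientGroup.mk_mul, hmkeq]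
    have h1 := hcm _ (C.inv_mem y.2) _ (C.inv_mem x.2)
    convert h1 using 1
    simp only [Subgroup.coe_mul, commutatorElement_def]
    group
  have heV : ∀ a : C ⧸ D.subgroupOf C, a * a = 1 := by
    intro a
    obtain ⟨x, rfl⟩ := QuotientGroup.mk_surjective a
    rw [← QuotientGroup.mk_mul, hmk1]
    exact hsq x x.2
  have hcW : ∀ a b : Om, a * b = b * a := by
    intro a b
    apply Subtype.ext
    exact hOc b b.2 a
  have heW : ∀ a : Om, a * a = 1 := by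
    intro a
    apply Subtype.ext
    exact (hOm a).mp a.2
  -- the quadratic map on the section
  let Q : (C ⧸ D.subgroupOf C) → Om := fun c =>
    ⟨Qf (Quotient.out c : C), hQO _ (Quotient.out c : C).2⟩
  have hQ : ∀ x : C, Q (x : C ⧸ D.subgroupOf C) = ⟨Qf x, hQO x x.2⟩ := by
    intro x
    apply Subtype.ext
    show Qf (Quotient.out (x : C ⧸ D.subgroupOf C) : C) = Qf x
    have h1 : ((Quotient.out (x : C ⧸ D.subgroupOf C) : C) : C ⧸ D.subgroupOf C) = x :=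
      Quotient.out_eq _
    have h2 := (hmkeq _ _).mp h1.symm
    have e : ((Quotient.out (x : C ⧸ D.subgroupOf C) : C) : G) =
        (x : G) * ((x : G)⁻¹ * (Quotient.out (x : C ⧸ D.subgroupOf C) : C)) := by group
    rw [e, hQd _ x.2 _ h2]
  have hQval : ∀ x : C, ((Q (x : C ⧸ D.subgroupOf C) : Om) : G) = Qf x := by
    intro x
    rw [hQ]
  -- induced maps for elements of `A`
  have hCi' : ∀ (a : MulAut G), a ∈ A → ∀ x ∈ C, a.toMonoidHom x ∈ C := hCi
  have hDi' : ∀ (a : MulAut G), a ∈ A → ∀ x ∈ D, a.toMonoidHom x ∈ D := hDi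
  have hind : ∀ (a : MulAut G) (ha : a ∈ A),
      Function.Injective (secMap C D a.toMonoidHom (hCi' a ha) (hDi' a ha)) := by
    intro a ha c d h
    obtain ⟨x, rfl⟩ := QuotientGroup.mk_surjective c
    obtain ⟨y, rfl⟩ := QuotientGroup.mk_surjective d
    rw [secMap_mk C D, secMap_mk C D, hmkeq] at h
    rw [hmkeq]
    have h1 := hDi a⁻¹ (A.inv_mem ha) _ h
    have e : (a⁻¹ : MulAut G) ((a.toMonoidHom (x : G))⁻¹ * a.toMonoidHom (y : G)) =
        (x : G)⁻¹ * y := by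
      show (a⁻¹ : MulAut G) ((a (x : G))⁻¹ * a (y : G)) = _
      rw [map_mul, map_inv, MulAut.inv_apply_self, MulAut.inv_apply_self]
    rwa [e] at h1
  have hκC : ∀ x ∈ C, κ.toMonoidHom x ∈ C := hCi κ hκ
  have hκDi : ∀ x ∈ D, κ.toMonoidHom x ∈ D := hDi κ hκ
  have hξC : ∀ x ∈ C, ξ.toMonoidHom x ∈ C := hCi ξ hξ
  have hξDi : ∀ x ∈ D, ξ.toMonoidHom x ∈ D := hDi ξ hξ
  let κb := secMap C D κ.toMonoidHom hκC hκDi
  let ξb := secMap C D ξ.toMonoidHom hξC hξDi
  have hξO : ∀ z ∈ Om, ξ z ∈ Om := by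
    intro z hz
    rw [hOm] at hz ⊢
    rw [← map_mul, hz, map_one]
  let ξ' : Om → Om := fun z => ⟨ξ z, hξO z z.2⟩
  have hξ'iter : ∀ (a : ℕ) (z : Om), ((ξ'^[a] z : Om) : G) = (ξ ^ a) (z : G) := by
    intro a z
    induction a with
    | zero => rfl
    | succ a ih =>
      rw [Function.iterate_succ_apply', pow_succ', MulAut.mul_apply, ← ih]
  have hmain := aniso_fix_grp (V := C ⧸ D.subgroupOf C) (W := Om) (r := r) (M := M)
    hcV hcW heV heW hn hOq Q
    (by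
      have h1 := hQ (1 : C)
      have h2 : (((1 : C) : C ⧸ D.subgroupOf C)) = 1 := rfl
      rw [h2] at h1
      rw [h1]
      apply Subtype.ext
      show Qf 1 = 1
      simp [hQf])
    (by
      intro v hv
      obtain ⟨x, rfl⟩ := QuotientGroup.mk_surjective v
      rw [hmk1]
      rw [hQ] at hv
      exact hQ1 _ x.2 (congrArg Subtype.val hv))
    (by
      intro u u' w
      obtain ⟨x, rfl⟩ := QuotientGroup.mk_surjective u
      obtain ⟨y, rfl⟩ := QuotientGroup.mk_surjective u'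
      obtain ⟨z, rfl⟩ := QuotientGroup.mk_surjective w
      rw [← QuotientGroup.mk_mul, ← QuotientGroup.mk_mul, ← QuotientGroup.mk_mul,
        ← QuotientGroup.mk_mul]
      simp only [hQ]
      have hxy : ((x * y : C) : G) ∈ C := (x * y).2
      let A' : Om := ⟨⁅(z : G), (x : G)⁆ ^ (2 ^ k), hcomem x x.2 z z.2⟩
      let B' : Om := ⟨⁅(z : G), (y : G)⁆ ^ (2 ^ k), hcomem y y.2 z z.2⟩
      let c' : Om := ⟨Qf x, hQO x x.2⟩
      let d' : Om := ⟨Qf y, hQO y y.2⟩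
      let e' : Om := ⟨Qf z, hQO z z.2⟩
      let g' : Om := ⟨Qf (x * y : C), hQO _ hxy⟩
      have e1 : (⟨Qf (x * y * z : C), hQO _ (x * y * z).2⟩ : Om) = A' * B' * (g' * e') := by
        apply Subtype.ext
        show Qf ((x * y : C) * (z : G)) = ⁅(z : G), (x : G)⁆ ^ (2 ^ k) * ⁅(z : G), (y : G)⁆ ^ (2 ^ k) *
          (Qf (x * y : C) * Qf z)
        rw [hPol _ hxy _ z.2, Subgroup.coe_mul, hBi _ z.2 _ x.2 _ y.2]
      have e2 : (⟨Qf (x * z : C), hQO _ (x * z).2⟩ : Om) = A' * (c' * e') := by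
        apply Subtype.ext
        exact hPol _ x.2 _ z.2
      have e3 : (⟨Qf (y * z : C), hQO _ (y * z).2⟩ : Om) = B' * (d' * e') := by
        apply Subtype.ext
        exact hPol _ y.2 _ z.2
      rw [e1, e2, e3]
      exact exp2_ident hcW heW A' B' c' d' e' g')
    (by
      intro z z' hz hz'
      obtain ⟨a, ha, haz⟩ := htrans (z : G) z' (fun h => hz (Subtype.ext h)) ((hOm _).mp z.2)
        (fun h => hz' (Subtype.ext h)) ((hOm _).mp z'.2)
      have hinj := hind a ha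
      have hb := Finite.injective_iff_bijective.mp hinj
      refine ⟨Equiv.ofBijective _ hb, ?_⟩
      intro v
      obtain ⟨x, rfl⟩ := QuotientGroup.mk_surjective v
      simp only [Equiv.ofBijective_apply]
      rw [secMap_mk C D, hQ, hQ]
      constructor
      · intro h
        apply Subtype.ext
        have h1 : Qf x = z := congrArg Subtype.val h
        show Qf (a (x : G)) = _
        have h2 := hQa a.toMonoidHom (x : G)
        rw [show a.toMonoidHom (x : G) = a (x : G) from rfl] at h2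
        rw [h2, h1, ← haz]
        rfl
      · intro h
        apply Subtype.ext
        have h1 : Qf (a (x : G)) = z' := congrArg Subtype.val h
        have h2 := hQa a.toMonoidHom (x : G)
        rw [show a.toMonoidHom (x : G) = a (x : G) from rfl, h1, ← haz] at h2
        exact (a.injective h2).symm)
    hr hrq κb
    (by
      intro v
      obtain ⟨x, rfl⟩ := QuotientGroup.mk_surjective v
      have hmem : (κ.toMonoidHom)^[r] (x : G) ∈ C := by
        rw [iter_eq_pow', hκr]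
        exact x.2
      rw [secMap_iter C D _ hκC hκDi r x hmem]
      congr 2
      rw [iter_eq_pow', hκr]
      rfl)
    (by
      intro v
      obtain ⟨x, rfl⟩ := QuotientGroup.mk_surjective v
      rw [secMap_mk C D, hQ, hQ]
      apply Subtype.ext
      show Qf (κ (x : G)) = Qf x
      have h2 := hQa κ.toMonoidHom (x : G)
      rw [show κ.toMonoidHom (x : G) = κ (x : G) from rfl] at h2
      rw [h2]
      exact hκD _ (hOD (hQO x x.2)))
    ξb ξ'
    (by
      intro v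
      obtain ⟨x, rfl⟩ := QuotientGroup.mk_surjective v
      rw [secMap_mk C D, hQ, hQ]
      apply Subtype.ext
      exact hQa ξ.toMonoidHom (x : G))
    (by
      intro v
      obtain ⟨x, rfl⟩ := QuotientGroup.mk_surjective v
      show secMap C D κ.toMonoidHom hκC hκDi (secMap C D ξ.toMonoidHom hξC hξDi (x : _ ⧸ _)) =
        secMap C D ξ.toMonoidHom hξC hξDi (secMap C D κ.toMonoidHom hκC hκDi (x : _ ⧸ _))
      rw [secMap_mk C D, secMap_mk C D, secMap_mk C D, secMap_mk C D]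
      congr 2
      exact DFunLike.congr_fun hcomm (x : G))
    (hind ξ hξ)
    (by
      intro a z hz h
      apply hfree a (z : G) (fun h => hz (Subtype.ext h)) ((hOm _).mp z.2)
      rw [← hξ'iter, h])
    hord
  intro x hx
  have h1 := hmain ((⟨x, hx⟩ : C) : C ⧸ D.subgroupOf C)
  have h2 : ((⟨κ x, hCi κ hκ x hx⟩ : C) : C ⧸ D.subgroupOf C) = ((⟨x, hx⟩ : C) : C ⧸ D.subgroupOf C) :=
    h1
  exact (hmkeq _ _).mp h2.symm

end Cfsg.Agent.Lib.PGroup.SuzukiGen
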