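import Mathlib
import Cfsg.Agent.Lib.PGroup.SuzukiGen.QSec

/-!
# Bad primes: an automorphism of prime order `r ∣ q - 1` which is trivial on `Om` is trivial

(In a group of automorphisms transitive on the involutions, provided it commutes with an element
acting semiregularly on the involutions.)
-/

set_option autoImplicit false
set_option linter.style.haveILetI false
set_option linter.unusedSectionVars false
set_option linter.unusedVariables false

namespace Cfsg.Agent.Lib.PGroup.SuzukiGen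

open scoped commutatorElement

variable {G : Type*} [Group G]

/-- A step in a `p`-group: strict inclusions have normalising elements. -/
theorem exists_norm [Finite G] (hG : IsPGroup 2 G) {H₁ H : Subgroup G} (hle : H₁ ≤ H)
    (hne : H ≠ H₁) : ∃ y ∈ H, y ∉ H₁ ∧ y ∈ Subgroup.normalizer (H₁ : Set G) := by
  classical
  haveI : Fact (Nat.Prime 2) := ⟨Nat.prime_two⟩
  haveI : Group.IsNilpotent H := (hG.to_subgroup H).isNilpotent
  let K : Subgroup H := H₁.subgroupOf H
  have hK : K ≠ ⊤ := by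
    intro h
    apply hne
    apply le_antisymm _ hle
    intro x hx
    have : (⟨x, hx⟩ : H) ∈ K := by rw [h]; trivial
    exact Subgroup.mem_subgroupOf.mp this
  have hlt := Group.normalizerCondition_of_isNilpotent K (lt_top_iff_ne_top.mpr hK)
  obtain ⟨y, hy, hyK⟩ := SetLike.exists_of_lt hlt
  refine ⟨y, y.2, fun h => hyK (Subgroup.mem_subgroupOf.mpr h), ?_⟩
  rw [Subgroup.mem_normalizer_iff]
  intro h
  rw [Subgroup.mem_normalizer_iff] at hy
  constructor
  · intro hh
    have h1 := (hy ⟨h, hle hh⟩).mp (Subgroup.mem_subgroupOf.mpr hh)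
    exact Subgroup.mem_subgroupOf.mp h1
  · intro hh
    have hhH : h ∈ H := by
      have h2 : (y : G) * h * (y : G)⁻¹ ∈ H := hle hh
      have h3 : h = (y : G)⁻¹ * ((y : G) * h * (y : G)⁻¹) * y := by group
      rw [h3]
      exact H.mul_mem (H.mul_mem (H.inv_mem y.2) h2) y.2
    have h1 := (hy ⟨h, hhH⟩).mpr (Subgroup.mem_subgroupOf.mpr hh)
    exact Subgroup.mem_subgroupOf.mp h1

/-- **Bad primes.** -/
theorem bad_trivial [Finite G] (hG : IsPGroup 2 G) (Om : Subgroup G)
    (hOm : ∀ x, x ∈ Om ↔ x * x = 1)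
    (hOc : ∀ x ∈ Om, ∀ g, g * x = x * g) {n : ℕ} (hn : 2 ≤ n) (hOq : Nat.card Om = 2 ^ n)
    {A : Subgroup (MulAut G)}
    (htrans : ∀ x y : G, x ≠ 1 → x * x = 1 → y ≠ 1 → y * y = 1 → ∃ a ∈ A, a x = y)
    {κ ξ : MulAut G} (hκ : κ ∈ A) (hξ : ξ ∈ A) (hκO : ∀ z ∈ Om, κ z = z) (hcomm : κ * ξ = ξ * κ)
    {r M : ℕ} (hr : r.Prime) (hrq : r ∣ 2 ^ n - 1) (hκr : κ ^ r = 1)
    (hfree : ∀ (a : ℕ) (z : G), z ≠ 1 → z * z = 1 → (ξ ^ a) z = z → M ∣ a)
    (hord : ∀ d, M ∣ 2 ^ d - 1 → n ∣ d) : κ = 1 := by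
  classical
  haveI : Fact (Nat.Prime 2) := ⟨Nat.prime_two⟩
  have hr2 : r ≠ 2 := by
    rintro rfl
    obtain ⟨m, hm⟩ := hrq
    obtain ⟨n', rfl⟩ : ∃ n', n = n' + 1 := ⟨n - 1, by omega⟩
    rw [pow_succ] at hm
    have : 1 ≤ 2 ^ n' := Nat.one_le_two_pow
    omega
  have hstab : ∀ (l : MulAut G), l ^ r = 1 → ∀ x d : G, l d = d → l x = x * d → d = 1 := by
    intro l hl x d hd hx
    have hi : ∀ m : ℕ, (l ^ m) x = x * d ^ m := by
      intro m
      induction m with
      | zero => simp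
      | succ m ih =>
        rw [pow_succ', MulAut.mul_apply, ih, map_mul, hx, map_pow, hd, mul_assoc, ← pow_succ']
    have h1 := hi r
    rw [hl] at h1
    have h2 : d ^ r = 1 := by
      have : x * d ^ r = x * 1 := by rw [← h1, mul_one]; rfl
      exact mul_left_cancel this
    have h3 := orderOf_dvd_of_pow_eq_one h2
    obtain ⟨t, ht⟩ := IsPGroup.iff_orderOf.mp hG d
    rcases (Nat.dvd_prime hr).mp h3 with h4 | h4
    · exact orderOf_eq_one_iff.mp h4
    · exfalso
      rw [ht] at h4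
      rcases t with _ | t
      · simp at h4
        exact hr.one_lt.ne h4
      · have h5 : 2 ∣ r := by
          rw [← h4, pow_succ]
          exact Dvd.intro_left _ rfl
        exact hr2 ((Nat.prime_dvd_prime_iff_eq Nat.prime_two hr).mp h5).symm
  -- the conjugates of `κ`
  let L : MulAut G → MulAut G := fun a => a * κ * a⁻¹
  have hLr : ∀ a, L a ^ r = 1 := by
    intro a
    show (a * κ * a⁻¹) ^ r = 1
    rw [conj_pow, hκr]
    group
  have hLA : ∀ a ∈ A, L a ∈ A := fun a ha => A.mul_mem (A.mul_mem ha hκ) (A.inv_mem ha)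
  let H₁ : Subgroup G :=
    { carrier := {x | ∀ a ∈ A, L a x = x}
      one_mem' := fun a _ => map_one _
      mul_mem' := by
        intro x y hx hy a ha
        rw [map_mul, hx a ha, hy a ha]
      inv_mem' := by
        intro x hx a ha
        rw [map_inv, hx a ha] }
  have hmemH₁ : ∀ x, x ∈ H₁ ↔ ∀ a ∈ A, L a x = x := fun x => Iff.rfl
  have hH₁i : ∀ b ∈ A, ∀ x ∈ H₁, b x ∈ H₁ := by
    intro b hb x hx a ha
    have h1 := hx (b⁻¹ * a) (A.mul_mem (A.inv_mem hb) ha)
    have h2 : L a = b * L (b⁻¹ * a) * b⁻¹ := by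
      show a * κ * a⁻¹ = b * (b⁻¹ * a * κ * (b⁻¹ * a)⁻¹) * b⁻¹
      group
    rw [h2, MulAut.mul_apply, MulAut.mul_apply, MulAut.inv_apply_self, h1]
  have hinvO : ∀ (a : MulAut G) (z : G), z ∈ Om → a z ∈ Om := by
    intro a z hz
    rw [hOm] at hz ⊢
    rw [← map_mul, hz, map_one]
  have hOH₁ : Om ≤ H₁ := by
    intro z hz a ha
    show (a * κ * a⁻¹) z = z
    rw [MulAut.mul_apply, MulAut.mul_apply, hκO _ (hinvO a⁻¹ z hz), MulAut.apply_inv_self]
  by_contra hκ1
  have hH₁top : H₁ ≠ ⊤ := by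
    intro h
    apply hκ1
    ext x
    have h1 : x ∈ H₁ := by rw [h]; trivial
    have h2 := h1 1 A.one_mem
    have h3 : L 1 = κ := by
      show 1 * κ * 1⁻¹ = κ
      group
    rw [h3] at h2
    exact h2
  -- a minimal invariant subgroup above `H₁`
  let 𝒮 : Set (Subgroup G) := {H | (∀ a ∈ A, ∀ x ∈ H, a x ∈ H) ∧ H₁ ≤ H ∧ H ≠ H₁}
  have h𝒮 : 𝒮.Nonempty := ⟨⊤, fun _ _ _ _ => trivial, le_top, fun h => hH₁top h.symm⟩
  obtain ⟨H, hH⟩ := (Set.toFinite 𝒮).exists_minimal h𝒮
  obtain ⟨hHi, hH₁H, hHne⟩ := hH.prop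
  have hmin : ∀ C : Subgroup G, (∀ a ∈ A, ∀ x ∈ C, a x ∈ C) → H₁ ≤ C → C ≠ H₁ → C ≤ H → H ≤ C :=
    fun C h1 h2 h3 h4 => hH.le_of_le ⟨h1, h2, h3⟩ h4
  -- `H₁` is normal in `H`
  have hHnorm : H ≤ Subgroup.normalizer (H₁ : Set G) := by
    obtain ⟨y, hyH, hyH₁, hyN⟩ := exists_norm hG hH₁H hHne
    let N : Subgroup G := H ⊓ Subgroup.normalizer (H₁ : Set G)
    have hN : H ≤ N := by
      apply hmin N
      · intro a ha x hx
        refine ⟨hHi a ha x hx.1, ?_⟩
        have hx2 : x ∈ Subgroup.normalizer (H₁ : Set G) := hx.2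
        show a x ∈ Subgroup.normalizer (H₁ : Set G)
        rw [Subgroup.mem_normalizer_iff] at hx2 ⊢
        intro h
        have e : a x * h * (a x)⁻¹ = a (x * a⁻¹ h * x⁻¹) := by
          rw [map_mul, map_mul, map_inv, MulAut.apply_inv_self]
        rw [e]
        constructor
        · intro hh
          exact hH₁i a ha _ ((hx2 _).mp (hH₁i a⁻¹ (A.inv_mem ha) _ hh))
        · intro hh
          have h1 := hH₁i a⁻¹ (A.inv_mem ha) _ hh
          rw [MulAut.inv_apply_self] at h1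
          have h2 := hH₁i a ha _ ((hx2 _).mpr h1)
          rwa [MulAut.apply_inv_self] at h2
      · intro x hx
        exact ⟨hH₁H hx, Subgroup.le_normalizer hx⟩
      · intro h
        apply hyH₁
        rw [← h]
        exact ⟨hyH, hyN⟩
      · exact inf_le_left
    exact hN.trans inf_le_right
  have hconj : ∀ x ∈ H, ∀ h ∈ H₁, x * h * x⁻¹ ∈ H₁ := by
    intro x hx h hh
    exact (Subgroup.mem_normalizer_iff.mp (hHnorm hx) h).mp hh
  -- commutators
  have hcommH : ∀ x ∈ H, ∀ y ∈ H, ⁅x, y⁆ ∈ H₁ := by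
    let K : Subgroup H := H₁.subgroupOf H
    haveI hKn : K.Normal := by
      constructor
      intro k hk g
      rw [Subgroup.mem_subgroupOf] at hk ⊢
      exact hconj g g.2 k hk
    have hKtop : (⊤ : Subgroup H) ≠ K := by
      intro h
      apply hHne
      apply le_antisymm _ hH₁H
      intro x hx
      have : (⟨x, hx⟩ : H) ∈ K := by rw [← h]; trivial
      exact Subgroup.mem_subgroupOf.mp this
    obtain ⟨t, -, htK, ht⟩ := exists_step_of_lt (hG.to_subgroup H) hKn
      (Subgroup.normal_of_characteristic ⊤) le_top hKtop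
    let C₁ : Subgroup G :=
      { carrier := {x | x ∈ H ∧ ∀ y ∈ H, ⁅x, y⁆ ∈ H₁}
        one_mem' := ⟨H.one_mem, fun y _ => by
          rw [commutatorElement_one_left]
          exact H₁.one_mem⟩
        mul_mem' := by
          rintro x x' ⟨hx, hx1⟩ ⟨hx', hx1'⟩
          refine ⟨H.mul_mem hx hx', fun y hy => ?_⟩
          have e : ⁅x * x', y⁆ = x * ⁅x', y⁆ * x⁻¹ * ⁅x, y⁆ := by
            simp only [commutatorElement_def]; group
          rw [e]
          exact H₁.mul_mem (hconj x hx _ (hx1' y hy)) (hx1 y hy)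
        inv_mem' := by
          rintro x ⟨hx, hx1⟩
          refine ⟨H.inv_mem hx, fun y hy => ?_⟩
          have e : ⁅x⁻¹, y⁆ = x⁻¹ * ⁅x, y⁆⁻¹ * x⁻¹⁻¹ := by
            simp only [commutatorElement_def]; group
          rw [e]
          exact hconj _ (H.inv_mem hx) _ (H₁.inv_mem (hx1 y hy)) }
    have hC₁ : H ≤ C₁ := by
      apply hmin C₁
      · rintro a ha x ⟨hx, hx1⟩
        refine ⟨hHi a ha x hx, fun y hy => ?_⟩
        have e : ⁅a x, y⁆ = a ⁅x, a⁻¹ y⁆ := by
          rw [map_commutatorElement, MulAut.apply_inv_self]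
        rw [e]
        exact hH₁i a ha _ (hx1 _ (hHi a⁻¹ (A.inv_mem ha) y hy))
      · intro x hx
        refine ⟨hH₁H hx, fun y hy => ?_⟩
        have e : ⁅x, y⁆ = x * (y * x⁻¹ * y⁻¹) := by
          simp only [commutatorElement_def]; group
        rw [e]
        exact H₁.mul_mem hx (hconj y hy _ (H₁.inv_mem hx))
      · intro h
        apply htK
        apply Subgroup.mem_subgroupOf.mpr
        rw [← h]
        refine ⟨t.2, fun y hy => ?_⟩
        have h1 := ht ⟨y, hy⟩
        exact Subgroup.mem_subgroupOf.mp h1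
      · intro x hx
        exact hx.1
    exact fun x hx y hy => (hC₁ hx).2 y hy
  -- squares
  have hsqH : ∀ x ∈ H, x * x ∈ H₁ := by
    let E : Subgroup G :=
      { carrier := {x | x ∈ H ∧ x * x ∈ H₁}
        one_mem' := ⟨H.one_mem, by simp [H₁.one_mem]⟩
        mul_mem' := by
          rintro x y ⟨hx, hx1⟩ ⟨hy, hy1⟩
          refine ⟨H.mul_mem hx hy, ?_⟩
          have e : x * y * (x * y) = (x * x) * ⁅x⁻¹, y⁆ * (y * y) := by
            simp only [commutatorElement_def]; group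
          rw [e]
          exact H₁.mul_mem (H₁.mul_mem hx1 (hcommH _ (H.inv_mem hx) _ hy)) hy1
        inv_mem' := by
          rintro x ⟨hx, hx1⟩
          refine ⟨H.inv_mem hx, ?_⟩
          rw [← mul_inv_rev]
          exact H₁.inv_mem hx1 }
    have hE : H ≤ E := by
      apply hmin E
      · rintro a ha x ⟨hx, hx1⟩
        refine ⟨hHi a ha x hx, ?_⟩
        rw [← map_mul]
        exact hH₁i a ha _ hx1
      · intro x hx
        exact ⟨hH₁H hx, H₁.mul_mem hx hx⟩
      · intro h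
        obtain ⟨u, huH, huH₁⟩ : ∃ u ∈ H, u ∉ H₁ := by
          by_contra hcon
          push Not at hcon
          exact hHne (le_antisymm hcon hH₁H)
        have hex : ∃ j : ℕ, u ^ (2 ^ j) ∈ H₁ := by
          obtain ⟨e, he⟩ := IsPGroup.iff_card.mp hG
          refine ⟨e, ?_⟩
          rw [← he, pow_card_eq_one']
          exact H₁.one_mem
        have h0 : Nat.find hex ≠ 0 := by
          intro h0
          have h1 := Nat.find_spec hex
          rw [h0] at h1
          exact huH₁ (by simpa using h1)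
        obtain ⟨j, hj⟩ := Nat.exists_eq_succ_of_ne_zero h0
        have h1 := Nat.find_spec hex
        rw [hj] at h1
        have h2 := Nat.find_min hex (m := j) (by omega)
        apply h2
        have h3 : u ^ (2 ^ j) ∈ E := by
          refine ⟨H.pow_mem huH _, ?_⟩
          rw [← pow_add, ← two_mul, ← pow_succ']
          exact h1
        rw [h] at h3
        exact h3
      · intro x hx
        exact hx.1
    exact fun x hx => (hE hx).2
  -- the section
  let Cz : Subgroup G := Subgroup.centralizer (H₁ : Set G)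
  have hCzi : ∀ a ∈ A, ∀ x ∈ Cz, a x ∈ Cz := by
    intro a ha x hx
    refine Subgroup.mem_centralizer_iff.mpr ?_
    intro h hh
    have h1 : a⁻¹ h ∈ H₁ := hH₁i a⁻¹ (A.inv_mem ha) h hh
    have h2 := Subgroup.mem_centralizer_iff.mp hx _ h1
    have h3 := congrArg a h2
    rwa [map_mul, map_mul, MulAut.apply_inv_self] at h3
  let C : Subgroup G := H ⊓ Cz
  let D : Subgroup G := H₁ ⊓ Cz
  have hCi : ∀ a ∈ A, ∀ x ∈ C, a x ∈ C := fun a ha x hx => ⟨hHi a ha x hx.1, hCzi a ha x hx.2⟩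
  have hDi : ∀ a ∈ A, ∀ x ∈ D, a x ∈ D := fun a ha x hx => ⟨hH₁i a ha x hx.1, hCzi a ha x hx.2⟩
  have hDC : D ≤ C := fun x hx => ⟨hH₁H hx.1, hx.2⟩
  have hDc : ∀ d ∈ D, ∀ x ∈ C, x * d = d * x := fun d hd x hx =>
    (Subgroup.mem_centralizer_iff.mp hx.2 d hd.1).symm
  have hOD : Om ≤ D := fun x hx => ⟨hOH₁ hx, Subgroup.mem_centralizer_iff.mpr
    (fun h _ => hOc x hx h)⟩
  have hsq : ∀ x ∈ C, x * x ∈ D := fun x hx => ⟨hsqH x hx.1, Cz.mul_mem hx.2 hx.2⟩
  have hcm : ∀ x ∈ C, ∀ y ∈ C, ⁅x, y⁆ ∈ D := by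
    intro x hx y hy
    refine ⟨hcommH x hx.1 y hy.1, ?_⟩
    rw [commutatorElement_def]
    exact Cz.mul_mem (Cz.mul_mem (Cz.mul_mem hx.2 hy.2) (Cz.inv_mem hx.2)) (Cz.inv_mem hy.2)
  -- each conjugate is trivial on `H`
  have hCall : ∀ a ∈ A, ∀ x ∈ C, L a x = x := by
    intro a ha
    have hl := hLA a ha
    have hξa : a * ξ * a⁻¹ ∈ A := A.mul_mem (A.mul_mem ha hξ) (A.inv_mem ha)
    have hq := qsec hG Om hOm hOc hn hOq htrans hCi hDi hDC hDc hOD hsq hcm hl hξa
      (fun d hd => hd.1 a ha)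
      (by
        show a * κ * a⁻¹ * (a * ξ * a⁻¹) = a * ξ * a⁻¹ * (a * κ * a⁻¹)
        have e1 : a * κ * a⁻¹ * (a * ξ * a⁻¹) = a * (κ * ξ) * a⁻¹ := by group
        have e2 : a * ξ * a⁻¹ * (a * κ * a⁻¹) = a * (ξ * κ) * a⁻¹ := by group
        rw [e1, e2, hcomm])
      hr hrq (hLr a)
      (by
        intro b z hz1 hz2 h
        rw [conj_pow, MulAut.mul_apply, MulAut.mul_apply] at h
        apply hfree b (a⁻¹ z)
        · intro h0
          apply hz1
          have := congrArg a h0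
          rwa [MulAut.apply_inv_self, map_one] at this
        · rw [← map_mul, hz2, map_one]
        · have h2 := congrArg (⇑(a⁻¹ : MulAut G)) h
          rwa [MulAut.inv_apply_self] at h2)
      hord
    intro x hx
    have hd := hq x hx
    set d := x⁻¹ * (a * κ * a⁻¹) x with hd'
    have h1 : d = 1 := hstab (L a) (hLr a) x d (hd.1 a ha) (by
      rw [hd']
      show (a * κ * a⁻¹) x = x * (x⁻¹ * (a * κ * a⁻¹) x)
      group)
    rw [hd', inv_mul_eq_one] at h1
    exact h1.symm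
  have hCH₁ : C ≤ H₁ := fun x hx a ha => hCall a ha x hx
  have hkey : ∀ a ∈ A, ∀ x ∈ H, L a x = x := by
    intro a ha x hx
    set y := L a x with hy
    have hyH : y ∈ H := hHi (L a) (hLA a ha) x hx
    have hdC : x⁻¹ * y ∈ C := by
      refine ⟨H.mul_mem (H.inv_mem hx) hyH, Subgroup.mem_centralizer_iff.mpr ?_⟩
      intro h hh
      have hh' : h ∈ H₁ := hh
      have h1 : x * h * x⁻¹ ∈ H₁ := hconj x hx h hh'
      have h2 : L a (x * h * x⁻¹) = x * h * x⁻¹ := h1 a ha
      rw [map_mul, map_mul, map_inv, hh' a ha, ← hy] at h2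
      calc h * (x⁻¹ * y) = x⁻¹ * (x * h * x⁻¹) * y := by group
        _ = x⁻¹ * (y * h * y⁻¹) * y := by rw [h2]
        _ = x⁻¹ * y * h := by group
    have hd1 : x⁻¹ * y = 1 := by
      apply hstab (L a) (hLr a) x (x⁻¹ * y) (hCH₁ hdC a ha)
      rw [← hy]
      group
    rw [inv_mul_eq_one] at hd1
    exact hd1.symm
  exact hHne (le_antisymm (fun x hx a ha => hkey a ha x hx) hH₁H)

end Cfsg.Agent.Lib.PGroup.SuzukiGen
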