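import Mathlib
import Cfsg.Agent.Lib.PGroup.Basic
import Cfsg.Agent.Lib.PGroup.SuzukiGen.BadPrime
import Cfsg.Agent.Lib.PGroup.SuzukiGen.PartB

/-!
# Higman's theorem on 2-groups with a solvable automorphism group transitive on the involutions
-/

set_option autoImplicit false
set_option linter.style.haveILetI false
set_option linter.unusedSectionVars false
set_option linter.unusedVariables false

namespace Cfsg.Agent.Lib.PGroup.SuzukiGen

open scoped commutatorElement

variable {G : Type*} [Group G]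

theorem fix_pow_of_fix {g : MulAut G} {z : G} (h : g z = z) (k : ℕ) : (g ^ k) z = z := by
  induction k with
  | zero => rfl
  | succ k ih => rw [pow_succ', MulAut.mul_apply, ih, h]

/-- Existence of the set-up. -/
theorem exists_setup [Finite G] (hG : IsPGroup 2 G)
    (htwo : ∃ x y : G, x ≠ y ∧ x ≠ 1 ∧ x * x = 1 ∧ y ≠ 1 ∧ y * y = 1)
    (Y : Subgroup (MulAut G)) [Group.IsSolvable Y]
    (hYt : ∀ x y : G, x ≠ 1 → x * x = 1 → y ≠ 1 → y * y = 1 → ∃ a ∈ Y, a x = y) :
    ∃ (ξ : G →* G) (q M n : ℕ), Setup ξ q M n := by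
  classical
  haveI : Fact (Nat.Prime 2) := ⟨Nat.prime_two⟩
  haveI : Finite (MulAut G) :=
    Finite.of_injective (fun g : MulAut G => (g : G → G)) DFunLike.coe_injective
  obtain ⟨x₁, y₁, hxy, hx₁, hx₁2, hy₁, hy₁2⟩ := htwo
  haveI : Nontrivial G := ⟨⟨x₁, 1, hx₁⟩⟩
  -- central involutions
  obtain ⟨z, hz1, hz2, hzc⟩ : ∃ z : G, z ≠ 1 ∧ z * z = 1 ∧ z ∈ Subgroup.center G := by
    have hcen := hG.center_nontrivial
    have hp : IsPGroup 2 (Subgroup.center G) := hG.to_subgroup _
    obtain ⟨k, hk⟩ := IsPGroup.iff_card.mp hp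
    have hk0 : k ≠ 0 := by
      rintro rfl
      have h1 : Nat.card (Subgroup.center G) = 1 := by simpa using hk
      have h2 := Finite.one_lt_card (α := Subgroup.center G)
      omega
    have hd : 2 ∣ Nat.card (Subgroup.center G) := by
      rw [hk]
      exact dvd_pow_self 2 hk0
    obtain ⟨w, hw⟩ := exists_prime_orderOf_dvd_card' 2 hd
    refine ⟨(w : G), ?_, ?_, w.2⟩
    · intro h
      have : w = 1 := Subtype.ext h
      rw [this] at hw
      simp at hw
    · have : w * w = 1 := by
        rw [← pow_two, ← hw]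
        exact pow_orderOf_eq_one w
      exact congrArg Subtype.val this
  have hcent : ∀ x : G, x ≠ 1 → x * x = 1 → ∀ g, g * x = x * g := by
    intro x hx hx2 g
    obtain ⟨a, ha, rfl⟩ := hYt z x hz1 hz2 hx hx2
    obtain ⟨g', rfl⟩ := a.surjective g
    rw [← map_mul, ← map_mul, (Subgroup.mem_center_iff.mp hzc g')]
  -- the subgroup of elements with square one
  let Om : Subgroup G :=
    { carrier := {x | x * x = 1}
      one_mem' := by simp
      mul_mem' := by
        intro a b (ha : a * a = 1) (hb : b * b = 1)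
        show a * b * (a * b) = 1
        by_cases hb1 : b = 1
        · rw [hb1]; simpa using ha
        · calc a * b * (a * b) = a * (b * a) * b := by group
            _ = a * (a * b) * b := by rw [hcent b hb1 hb a]
            _ = a * a * (b * b) := by group
            _ = 1 := by rw [ha, hb, one_mul]
      inv_mem' := by
        intro a (ha : a * a = 1)
        show a⁻¹ * a⁻¹ = 1
        rw [← mul_inv_rev, ha, inv_one] }
  have hOm : ∀ x, x ∈ Om ↔ x * x = 1 := fun x => Iff.rfl
  have hOc : ∀ x ∈ Om, ∀ g, g * x = x * g := by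
    intro x hx g
    by_cases h : x = 1
    · rw [h]; simp
    · exact hcent x h hx g
  obtain ⟨n, hOq⟩ := IsPGroup.iff_card.mp (hG.to_subgroup Om)
  have hn : 2 ≤ n := by
    by_contra hcon
    have h1 : Nat.card Om ≤ 2 := by
      rw [hOq]
      have h2 : 2 ^ n ≤ 2 ^ 1 := Nat.pow_le_pow_right (by norm_num) (by omega)
      simpa using h2
    haveI := Fintype.ofFinite Om
    let S : Finset Om := {1, ⟨x₁, hx₁2⟩, ⟨y₁, hy₁2⟩}
    have hS : S.card = 3 := by
      apply Finset.card_eq_three.mpr
      refine ⟨1, ⟨x₁, hx₁2⟩, ⟨y₁, hy₁2⟩, ?_, ?_, ?_, rfl⟩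
      · intro h
        exact hx₁ (congrArg Subtype.val h).symm
      · intro h
        exact hy₁ (congrArg Subtype.val h).symm
      · intro h
        exact hxy (congrArg Subtype.val h)
    have h2 := Finset.card_le_univ S
    rw [hS, ← Nat.card_eq_fintype_card] at h2
    omega
  -- the action on `Om`
  have hiO : ∀ (a : MulAut G) (z : G), z ∈ Om → a z ∈ Om := by
    intro a z hz
    rw [hOm] at hz ⊢
    rw [← map_mul, hz, map_one]
  let restr : MulAut G → MulAut Om := fun a =>
    { toFun := fun z => ⟨a z, hiO a z z.2⟩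
      invFun := fun z => ⟨a⁻¹ z, hiO a⁻¹ z z.2⟩
      left_inv := fun z => Subtype.ext (MulAut.inv_apply_self G a z)
      right_inv := fun z => Subtype.ext (MulAut.apply_inv_self G a z)
      map_mul' := fun u v => Subtype.ext (map_mul a (u : G) v) }
  have hrestr : ∀ (a : MulAut G) (z : Om), ((restr a z : Om) : G) = a z := fun _ _ => rfl
  let act : Y →* MulAut Om := MonoidHom.mk' (fun y => restr y) (by
    intro y y'
    ext z
    rfl)
  have hact : ∀ (y : Y) (z : Om), ((act y z : Om) : G) = (y : MulAut G) z := fun _ _ => rfl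
  have hcO : ∀ a b : Om, a * b = b * a := by
    intro a b
    apply Subtype.ext
    exact hOc b b.2 a
  have heO : ∀ a : Om, a * a = 1 := by
    intro a
    apply Subtype.ext
    exact (hOm a).mp a.2
  obtain ⟨y₀, M, t, hMt, htn, hy₀M, hy₀s⟩ := partB_mul hcO heO act
    (by
      intro v w hv hw
      obtain ⟨a, ha, haw⟩ := hYt (v : G) w (fun h => hv (Subtype.ext h)) ((hOm _).mp v.2)
        (fun h => hw (Subtype.ext h)) ((hOm _).mp w.2)
      exact ⟨⟨a, ha⟩, Subtype.ext haw⟩)
    hn hOq
  have hord : ∀ d, M ∣ 2 ^ d - 1 → n ∣ d := fun d h => hord_of hMt htn hn h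
  -- a lift of minimal order
  let P : MulAut G → Prop := fun y => y ∈ Y ∧ (∀ z, z * z = 1 → (y ^ M) z = z) ∧
    ∀ (b : ℕ) (z : G), z ≠ 1 → z * z = 1 → (y ^ b) z = z → M ∣ b
  have hP₀ : P (y₀ : MulAut G) := by
    refine ⟨y₀.2, ?_, ?_⟩
    · intro z hz
      have h1 := DFunLike.congr_fun hy₀M (⟨z, hz⟩ : Om)
      have h2 := congrArg Subtype.val h1
      exact h2
    · intro b z hz1 hz2 h
      apply hy₀s ⟨z, hz2⟩ (fun h => hz1 (congrArg Subtype.val h)) b
      apply Subtype.ext
      exact h
  have hex : ∃ k, ∃ y, P y ∧ orderOf y = k := ⟨_, _, hP₀, rfl⟩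
  obtain ⟨y, hPy, hyord⟩ := Nat.find_spec hex
  set w := Nat.find hex with hw
  obtain ⟨hyY, hyM, hys⟩ := hPy
  have hwpos : 0 < w := by
    rw [← hyord]
    exact orderOf_pos y
  have hyw : y ^ w = 1 := by
    rw [← hyord]
    exact pow_orderOf_eq_one y
  have hMw : M ∣ w := by
    apply hys w x₁ hx₁ hx₁2
    rw [hyw]
    rfl
  have hMne1 : M ≠ 1 := M_ne_one hMt htn hn
  have hn4 : 4 ≤ 2 ^ n := by
    calc 4 = 2 ^ 2 := rfl
      _ ≤ 2 ^ n := Nat.pow_le_pow_right (by norm_num) hn
  have hM0 : M ≠ 0 := by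
    rintro rfl
    rw [zero_mul] at hMt
    omega
  have hyM1 : y ^ M = 1 := by
    obtain ⟨k, hk⟩ := hMw
    by_contra hne
    have hk1 : k ≠ 1 := by
      rintro rfl
      rw [mul_one] at hk
      rw [← hk] at hne
      exact hne hyw
    set r := k.minFac with hr
    have hrp : r.Prime := Nat.minFac_prime hk1
    obtain ⟨k', hk'⟩ : r ∣ k := Nat.minFac_dvd k
    have hk'0 : k' ≠ 0 := by
      rintro rfl
      rw [mul_zero] at hk'
      rw [hk', mul_zero] at hk
      omega
    by_cases hrM : r ∣ M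
    · -- a bad prime
      have hκ : y ^ (M * k') = 1 := by
        apply bad_trivial hG Om hOm hOc hn hOq hYt (κ := y ^ (M * k')) (ξ := y)
          (Y.pow_mem hyY _) hyY
          (by
            intro z hz
            rw [pow_mul]
            exact fix_pow_of_fix (hyM z hz) k')
          (by
            exact (Commute.refl y).pow_left _)
          hrp (hrM.trans ⟨t, hMt.symm⟩)
          (by
            rw [← pow_mul, show M * k' * r = w by rw [hk, hk']; ring, hyw])
          hys hord
      have h1 := orderOf_dvd_of_pow_eq_one hκ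
      rw [hyord] at h1
      have h2 := Nat.le_of_dvd (Nat.pos_of_ne_zero (Nat.mul_ne_zero hM0 hk'0)) h1
      have h3 : w = M * k' * r := by rw [hk, hk']; ring
      have h4 : M * k' * 2 ≤ M * k' * r := Nat.mul_le_mul_left _ hrp.two_le
      have h5 : 0 < M * k' := Nat.pos_of_ne_zero (Nat.mul_ne_zero hM0 hk'0)
      omega
    · -- a good prime: pass to a power
      have hcop : Nat.Coprime M r := ((Nat.Prime.coprime_iff_not_dvd hrp).mpr hrM).symm
      have hP' : P (y ^ r) := by
        refine ⟨Y.pow_mem hyY _, ?_, ?_⟩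
        · intro z hz
          rw [← pow_mul, mul_comm, pow_mul]
          exact fix_pow_of_fix (hyM z hz) r
        · intro b z hz1 hz2 h
          rw [← pow_mul] at h
          have := hys _ z hz1 hz2 h
          exact hcop.dvd_of_dvd_mul_left this
      have hrw : r ∣ w := by
        rw [hk, hk']
        exact Dvd.dvd.mul_left (Dvd.intro _ rfl) _
      have hlt : orderOf (y ^ r) < w := by
        rw [orderOf_pow' y hrp.ne_zero, hyord, Nat.gcd_eq_right hrw]
        exact Nat.div_lt_self hwpos hrp.one_lt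
      exact Nat.find_min hex hlt ⟨y ^ r, hP', rfl⟩
  -- the set-up
  refine ⟨y.toMonoidHom, 2 ^ n, M, n, ?_⟩
  refine ⟨inferInstance, hG, ?_, ?_, hcent, ?_, rfl, hn, ?_, ⟨t, hMt.symm⟩, hord, hw_of hMt htn hn⟩
  · intro x
    rw [iter_eq_pow', hyM1]
    rfl
  · rw [← hOq, ← Setup.card_ne_one Om]
    congr 1
    apply Nat.card_congr
    exact
      { toFun := fun x => ⟨x.1, x.2.2, x.2.1⟩
        invFun := fun x => ⟨x.1, x.2.2, x.2.1⟩
        left_inv := fun x => rfl
        right_inv := fun x => rfl }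
  · intro a x hx1 hx2 h
    rw [iter_eq_pow'] at h
    exact hys a x hx1 hx2 h
  · omega

/-- **Higman's theorem.** -/
theorem higman_solvable [Finite G] (hG : IsPGroup 2 G) (hna : ∃ u v : G, u * v ≠ v * u)
    (htwo : ∃ x y : G, x ≠ y ∧ x ≠ 1 ∧ x * x = 1 ∧ y ≠ 1 ∧ y * y = 1)
    (Y : Subgroup (MulAut G)) [Group.IsSolvable Y]
    (hYt : ∀ x y : G, x ≠ 1 → x * x = 1 → y ≠ 1 → y * y = 1 → ∃ a ∈ Y, a x = y) :
    commutator G = frattini G ∧ frattini G = Subgroup.center G ∧
      ∀ x : G, x ∈ Subgroup.center G ↔ x * x = 1 := by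
  classical
  haveI : Fact (Nat.Prime 2) := ⟨Nat.prime_two⟩
  obtain ⟨ξ, q, M, n, S⟩ := exists_setup hG htwo Y hYt
  obtain ⟨u, v, huv⟩ := hna
  have hsq : ∀ x : G, x * x ∈ S.Om := by
    rcases core S with h | h
    · exact absurd (h u v) huv
    · exact h
  have hcenter : Subgroup.center G = S.Om := by
    ext z
    constructor
    · intro hz
      exact S.center_sub (H := ⊤) (fun _ _ => trivial) (fun x _ => hsq x)
        ⟨u, trivial, v, trivial, huv⟩ trivial (fun w _ => Subgroup.mem_center_iff.mp hz w)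
    · intro hz
      exact Subgroup.mem_center_iff.mpr (fun g => S.Om_central hz g)
  have hcm : ∀ x y : G, ⁅x, y⁆ ∈ S.Om := fun x y => S.comm_mem_of_sq (hsq x) (hsq y) (hsq _)
  have h1 : commutator G ≤ S.Om := by
    rw [commutator_def, Subgroup.commutator_le]
    exact fun x _ y _ => hcm x y
  have hinv : IsInv ξ (commutator G) := by
    intro x hx
    have h2 : ξ x ∈ (commutator G).map ξ := ⟨x, hx, rfl⟩
    rw [commutator_def, Subgroup.map_commutator] at h2
    rw [commutator_def]
    exact Subgroup.commutator_mono le_top le_top h2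
  have hne : commutator G ≠ ⊥ := by
    intro h
    have h2 : ⁅u, v⁆ ∈ commutator G := by
      rw [commutator_def]
      exact Subgroup.commutator_mem_commutator trivial trivial
    rw [h, Subgroup.mem_bot, commutatorElement_eq_one_iff_mul_comm] at h2
    exact huv h2
  have h2 : S.Om ≤ commutator G := S.Om_le hinv hne
  have h3 : commutator G = S.Om := le_antisymm h1 h2
  have h4 : frattini G ≤ S.Om := by
    rw [Cfsg.Agent.Lib.PGroup.Basic.frattini_le_iff hG]
    refine ⟨fun x => ?_, hcm⟩
    rw [pow_two]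
    exact hsq x
  have h5 : commutator G ≤ frattini G := Cfsg.Agent.Lib.PGroup.Basic.commutator_le_frattini hG
  have h6 : frattini G = S.Om := le_antisymm h4 (h3 ▸ h5)
  refine ⟨by rw [h3, h6], by rw [h6, hcenter], ?_⟩
  intro x
  rw [hcenter]
  exact S.mem_Om

end Cfsg.Agent.Lib.PGroup.SuzukiGen
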